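import Cfsg.Agent.TH.Cl.Cases.Div
import Cfsg.Agent.TH.Cl.Cases.Par
import Cfsg.Agent.TH.Cl.Cases.NS
import Cfsg.Agent.TH.Cl.Cases.Sim
import Cfsg.Agent.TH.Cl.Big.L
import Cfsg.Agent.TH.Cl.Big.Main
import Cfsg.Agent.TH.Cl.TorLU.Main
import Cfsg.Agent.TH.Cl.TorO.Main
import Cfsg.Agent.TH.Cl.FldLU.Main
import Cfsg.Agent.TH.Cl.FldSO.Main
import Cfsg.Agent.TH.Cl.Ten.Main
import Cfsg.Agent.TH.Cl.Ext.Main
import Cfsg.Agent.TH.Cl.B2.Box
import Cfsg.Agent.TH.Cl.D4.Main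

/-!
# S3541: the classical socles from the boxes with `H ⊓ T` almost simple (helper60)
-/

set_option autoImplicit false

namespace Cfsg.Agent.TH.Cl

theorem geo (s : Sims) : Geo :=
  ⟨boxCases, boxPar, boxNS, boxBigL, boxBigU, boxBigSp, boxBigO, boxTorL, boxTorU, boxTorO, boxFldL, boxFldU, boxFldSp,
    boxFldO, boxTen, boxExt boxTen, boxSim, boxB2 s, boxD4_of boxTri s, boxBridge⟩

theorem boxesCl (s : Sims) : BoxesCl := boxesCl_of (noCl_of (geo s) s)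

end Cfsg.Agent.TH.Cl
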